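import Cfsg.Agent.H273.RC.AbelBound
import Cfsg.Agent.H183.RC.Defs
import Cfsg.Agent.S2298
import Cfsg.Agent.S2303
import Cfsg.Agent.S2309
import Cfsg.Agent.S2320

/-!
# S3510, row C, task D: `chi_bound` (helper273)

`χ` an irreducible nonlinear character of `GL₂(q)`, `t` without eigenvectors: `(q - 1) ‖χ t‖ ≤ 2 ‖χ 1‖`.
-/

set_option autoImplicit false

open Cfsg Matrix Cfsg.Agent.Characters.Core Cfsg.Agent.H183.RC

namespace Cfsg.Agent.H273.RC

/-! ### counting -/

section count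

variable {G : Type*} [Group G] [Fintype G]

theorem card_conj_eq_le [DecidableEq G] (s y : G) :
    (Finset.univ.filter fun g : G => g * s * g⁻¹ = y).card ≤ Nat.card (Subgroup.centralizer ({s} : Set G)) := by
  classical
  rcases (Finset.univ.filter fun g : G => g * s * g⁻¹ = y).eq_empty_or_nonempty with h | ⟨g0, hg0⟩
  · rw [h, Finset.card_empty]
    exact Nat.zero_le _
  · rw [Finset.mem_filter] at hg0
    have h1 : (Finset.univ.filter fun g : G => g * s * g⁻¹ = y).card =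
        Nat.card {g : G // g * s * g⁻¹ = y} := by
      rw [Nat.card_eq_fintype_card, Fintype.card_subtype]
    rw [h1]
    refine Nat.card_le_card_of_injective (fun g => ⟨g0⁻¹ * g.1, ?_⟩) ?_
    · rw [Subgroup.mem_centralizer_singleton_iff]
      have h2 := g.2
      have h3 : g.1 * s * g.1⁻¹ = g0 * s * g0⁻¹ := h2.trans hg0.2.symm
      calc g0⁻¹ * g.1 * s = g0⁻¹ * (g.1 * s * g.1⁻¹) * g.1 := by group
        _ = g0⁻¹ * (g0 * s * g0⁻¹) * g.1 := by rw [h3]
        _ = s * (g0⁻¹ * g.1) := by group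
    · intro g g' h
      have := congrArg Subtype.val h
      exact Subtype.ext (mul_left_cancel this)

theorem double_count [DecidableEq G] (S Y : Finset G) (f : G → ℝ) (hf : ∀ g s : G, f (g * s * g⁻¹) = f s)
    (h0 : ∀ y, 0 ≤ f y) (hY : ∀ s ∈ S, ∀ g : G, g * s * g⁻¹ ∈ Y) (c : ℕ)
    (hc : ∀ s ∈ S, Nat.card (Subgroup.centralizer ({s} : Set G)) ≤ c)
    (h2 : ∀ s0 ∈ S, ∃ s1 : G, ∀ s ∈ S, IsConj s0 s → s = s0 ∨ s = s1) :
    (Nat.card G : ℝ) * ∑ s ∈ S, f s ≤ 2 * c * ∑ y ∈ Y, f y := by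
  classical
  have h1 : (Nat.card G : ℝ) * ∑ s ∈ S, f s = ∑ s ∈ S, ∑ g : G, f (g * s * g⁻¹) := by
    rw [Finset.mul_sum]
    refine Finset.sum_congr rfl fun s _ => ?_
    rw [Finset.sum_congr rfl fun g _ => hf g s, Finset.sum_const, Finset.card_univ, nsmul_eq_mul,
      Nat.card_eq_fintype_card]
  have h3 : ∀ s ∈ S, ∑ g : G, f (g * s * g⁻¹) ≤ ∑ y ∈ Y, (if IsConj s y then (c : ℝ) else 0) * f y := by
    intro s hs
    rw [← Finset.sum_fiberwise_of_maps_to (s := Finset.univ) (t := Y) (g := fun g : G => g * s * g⁻¹)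
      (fun g _ => hY s hs g)]
    refine Finset.sum_le_sum fun y _ => ?_
    rw [Finset.sum_congr rfl (g := fun _ => f y) (fun g hg => by rw [(Finset.mem_filter.1 hg).2]), Finset.sum_const,
      nsmul_eq_mul]
    refine mul_le_mul_of_nonneg_right ?_ (h0 y)
    by_cases hsy : IsConj s y
    · rw [if_pos hsy]
      exact_mod_cast (card_conj_eq_le s y).trans (hc s hs)
    · rw [if_neg hsy]
      have h4 : (Finset.univ.filter fun g : G => g * s * g⁻¹ = y) = ∅ := by
        rw [Finset.filter_eq_empty_iff]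
        intro g _ hg
        exact hsy (isConj_iff.2 ⟨g, hg⟩)
      rw [h4, Finset.card_empty, Nat.cast_zero]
  rw [h1]
  refine (Finset.sum_le_sum h3).trans ?_
  rw [Finset.sum_comm, Finset.mul_sum]
  refine Finset.sum_le_sum fun y _ => ?_
  rw [← Finset.sum_mul]
  refine mul_le_mul_of_nonneg_right ?_ (h0 y)
  rw [← Finset.sum_filter, Finset.sum_const, nsmul_eq_mul]
  refine mul_le_mul_of_nonneg_right ?_ (Nat.cast_nonneg c)
  rcases (S.filter fun s => IsConj s y).eq_empty_or_nonempty with h | ⟨s0, hs0⟩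
  · rw [h, Finset.card_empty]
    norm_num
  · rw [Finset.mem_filter] at hs0
    obtain ⟨s1, hs1⟩ := h2 s0 hs0.1
    have h5 : (S.filter fun s => IsConj s y) ⊆ {s0, s1} := by
      intro s hs
      rw [Finset.mem_filter] at hs
      rw [Finset.mem_insert, Finset.mem_singleton]
      exact hs1 s hs.1 (hs0.2.trans hs.2.symm)
    have h6 := (Finset.card_le_card h5).trans Finset.card_le_two
    exact_mod_cast h6

end count

/-! ### `GL₂` -/

section gl

variable {F : Type*} [Field F]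

theorem mem_center_iff' {g : GL (Fin 2) F} :
    g ∈ Subgroup.center (GL (Fin 2) F) ↔ ∃ c : F, (g : Matrix (Fin 2) (Fin 2) F) = c • 1 := by
  rw [Matrix.GeneralLinearGroup.mem_center_iff_val_mem_range_scalar]
  constructor
  · rintro ⟨c, hc⟩
    exact ⟨c, by rw [← hc, Matrix.scalar_apply, Matrix.smul_one_eq_diagonal]⟩
  · rintro ⟨c, hc⟩
    exact ⟨c, by rw [hc, Matrix.scalar_apply, Matrix.smul_one_eq_diagonal]⟩

theorem not_sc {t : GL (Fin 2) F} (ht : NoEig t) (c : F) : (t : Matrix (Fin 2) (Fin 2) F) ≠ c • 1 := by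
  intro h
  have hv : (fun _ : Fin 2 => (1 : F)) ≠ 0 := fun h => one_ne_zero (congrFun h 0)
  apply ht c _ hv
  rw [h, Matrix.smul_mulVec, Matrix.one_mulVec]

theorem not_center {t : GL (Fin 2) F} (ht : NoEig t) : t ∉ Subgroup.center (GL (Fin 2) F) := fun h => by
  obtain ⟨c, hc⟩ := mem_center_iff'.1 h
  exact not_sc ht c hc

theorem exists_ab {t s : GL (Fin 2) F} (ht : NoEig t)
    (hs : s ∈ Subgroup.centralizer ({t} : Set (GL (Fin 2) F))) :
    ∃ a b : F, (s : Matrix (Fin 2) (Fin 2) F) = a • 1 + b • (t : Matrix (Fin 2) (Fin 2) F) := by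
  refine S2303.exists_of_commute (not_sc ht) ?_
  have h := congrArg (fun x : GL (Fin 2) F => (x : Matrix (Fin 2) (Fin 2) F))
    (Subgroup.mem_centralizer_singleton_iff.1 hs)
  simpa using h

theorem comm_cent {t a b : GL (Fin 2) F} (ht : NoEig t)
    (ha : a ∈ Subgroup.centralizer ({t} : Set (GL (Fin 2) F)))
    (hb : b ∈ Subgroup.centralizer ({t} : Set (GL (Fin 2) F))) : a * b = b * a := by
  obtain ⟨x, y, h1⟩ := exists_ab ht ha
  obtain ⟨x', y', h2⟩ := exists_ab ht hb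
  ext1
  rw [Units.val_mul, Units.val_mul, h1, h2]
  simp only [add_mul, mul_add, Matrix.smul_mul, Matrix.mul_smul, Matrix.one_mul, Matrix.mul_one, smul_smul]
  rw [mul_comm x x', mul_comm x y', mul_comm y x', mul_comm y y']
  abel

theorem noEig_of_cent {t s : GL (Fin 2) F} (ht : NoEig t)
    (hs : s ∈ Subgroup.centralizer ({t} : Set (GL (Fin 2) F))) (hsc : s ∉ Subgroup.center (GL (Fin 2) F)) :
    NoEig s := by
  obtain ⟨a, b, h1⟩ := exists_ab ht hs
  have hb : b ≠ 0 := by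
    rintro rfl
    exact hsc (mem_center_iff'.2 ⟨a, by rw [h1, zero_smul, add_zero]⟩)
  intro c v hv h
  apply ht ((c - a) / b) v hv
  rw [h1, Matrix.add_mulVec, Matrix.smul_mulVec, Matrix.smul_mulVec, Matrix.one_mulVec] at h
  have h2 : b • ((t : Matrix (Fin 2) (Fin 2) F) *ᵥ v) = (c - a) • v := by
    rw [sub_smul, ← h, add_sub_cancel_left]
  rw [div_eq_inv_mul, ← smul_smul, ← h2, smul_smul, inv_mul_cancel₀ hb, one_smul]

theorem sq_eq (s : Matrix (Fin 2) (Fin 2) F) : s * s = s.trace • s - s.det • (1 : Matrix (Fin 2) (Fin 2) F) := by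
  ext i j
  fin_cases i <;> fin_cases j <;>
    simp [Matrix.mul_apply, Fin.sum_univ_two, Matrix.trace, Matrix.det_fin_two] <;> ring

/-- two conjugate elements of the centralizer -/
theorem eq_of_conj {t s s' : GL (Fin 2) F} (ht : NoEig t)
    (hs : s ∈ Subgroup.centralizer ({t} : Set (GL (Fin 2) F)))
    (hs' : s' ∈ Subgroup.centralizer ({t} : Set (GL (Fin 2) F))) (hc : IsConj s s') (hne : s' ≠ s) :
    (s' : Matrix (Fin 2) (Fin 2) F) = (s : Matrix (Fin 2) (Fin 2) F).trace • 1 - s := by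
  obtain ⟨g, hg⟩ := isConj_iff.1 hc
  have hM : (s' : Matrix (Fin 2) (Fin 2) F) = (g : Matrix (Fin 2) (Fin 2) F) * s * ((g⁻¹ : GL (Fin 2) F) : _) := by
    rw [← hg]; simp
  have htr : (s' : Matrix (Fin 2) (Fin 2) F).trace = (s : Matrix (Fin 2) (Fin 2) F).trace := by
    rw [hM, Matrix.trace_units_conj]
  have hdet : (s' : Matrix (Fin 2) (Fin 2) F).det = (s : Matrix (Fin 2) (Fin 2) F).det := by
    rw [hM, Matrix.det_units_conj]
  obtain ⟨x, y, h1⟩ := exists_ab ht hs
  obtain ⟨x', y', h2⟩ := exists_ab ht hs'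
  have hcomm : (s' : Matrix (Fin 2) (Fin 2) F) * s = s * s' := by
    have h := congrArg (fun x : GL (Fin 2) F => (x : Matrix (Fin 2) (Fin 2) F)) (comm_cent ht hs' hs)
    simpa using h
  set D : Matrix (Fin 2) (Fin 2) F := s' - s with hD
  have hD0 : D ≠ 0 := fun h => hne (Units.ext (sub_eq_zero.1 h))
  have hDE : D * ((s' : Matrix (Fin 2) (Fin 2) F) + s - (s : Matrix (Fin 2) (Fin 2) F).trace • 1) = 0 := by
    have e1 := sq_eq (s : Matrix (Fin 2) (Fin 2) F)
    have e2 := sq_eq (s' : Matrix (Fin 2) (Fin 2) F)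
    rw [htr, hdet] at e2
    rw [hD]
    simp only [sub_mul, mul_sub, mul_add, Matrix.mul_smul, Matrix.mul_one]
    rw [e1, e2, hcomm]
    abel
  have hdetD : D.det ≠ 0 := by
    intro h0
    obtain ⟨v, hv, hDv⟩ := Matrix.exists_mulVec_eq_zero_iff.2 h0
    have h3 : D = (x' - x) • 1 + (y' - y) • (t : Matrix (Fin 2) (Fin 2) F) := by
      rw [hD, h1, h2, sub_smul, sub_smul]; abel
    rw [h3, Matrix.add_mulVec, Matrix.smul_mulVec, Matrix.smul_mulVec, Matrix.one_mulVec] at hDv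
    by_cases hy : y' - y = 0
    · rw [hy, zero_smul, add_zero] at hDv
      have hx : x' - x = 0 := (smul_eq_zero.1 hDv).resolve_right hv
      apply hD0
      rw [h3, hx, hy, zero_smul, zero_smul, add_zero]
    · apply ht (-(x' - x) / (y' - y)) v hv
      have h4 : (y' - y) • ((t : Matrix (Fin 2) (Fin 2) F) *ᵥ v) = (-(x' - x)) • v := by
        rw [neg_smul]; exact eq_neg_of_add_eq_zero_right hDv
      rw [div_eq_inv_mul, ← smul_smul, ← h4, smul_smul, inv_mul_cancel₀ hy, one_smul]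
  have hE : (s' : Matrix (Fin 2) (Fin 2) F) + s - (s : Matrix (Fin 2) (Fin 2) F).trace • 1 = 0 := by
    have h5 := congrArg (fun X => D⁻¹ * X) hDE
    simp only [Matrix.mul_zero] at h5
    rwa [← Matrix.mul_assoc, Matrix.nonsing_inv_mul _ (isUnit_iff_ne_zero.2 hdetD), Matrix.one_mul] at h5
  rw [sub_eq_zero] at hE
  exact eq_sub_of_add_eq hE

end gl

section final

variable {F : Type*} [Field F] [Fintype F]

theorem card_center : Nat.card (Subgroup.center (GL (Fin 2) F)) = Fintype.card F - 1 := by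
  classical
  rw [← Fintype.card_units, ← Nat.card_eq_fintype_card]
  symm
  refine Nat.card_congr (Equiv.ofBijective (fun u : Fˣ => ⟨Matrix.GeneralLinearGroup.scalar (Fin 2) u, ?_⟩) ⟨?_, ?_⟩)
  · rw [Matrix.GeneralLinearGroup.center_eq_range_scalar]
    exact ⟨u, rfl⟩
  · intro u v h
    have h1 := congrArg (fun x : Subgroup.center (GL (Fin 2) F) => ((x : GL (Fin 2) F) : Matrix (Fin 2) (Fin 2) F) 0 0) h
    ext
    simpa using h1
  · rintro ⟨g, hg⟩
    rw [Matrix.GeneralLinearGroup.center_eq_range_scalar] at hg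
    obtain ⟨u, rfl⟩ := hg
    exact ⟨u, rfl⟩

theorem card_gl : Nat.card (GL (Fin 2) F) = (Fintype.card F ^ 2 - 1) * (Fintype.card F ^ 2 - Fintype.card F) := by
  rw [Matrix.card_GL_field, Fin.prod_univ_two]
  simp

theorem cusp_bound (hq : 3 ≤ Fintype.card F) {χ : GL (Fin 2) F → ℂ} (hχ : IsIrrCharacter (GL (Fin 2) F) χ)
    (h1 : χ 1 = (Fintype.card F : ℂ) - 1) {t : GL (Fin 2) F} (ht : NoEig t) : ‖χ t‖ ≤ 2 := by
  classical
  let _ : Fintype (GL (Fin 2) F) := Fintype.ofFinite _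
  set q := Fintype.card F with hqd
  set T := Subgroup.centralizer ({t} : Set (GL (Fin 2) F)) with hT
  have hab : ∀ a b : T, a * b = b * a := fun a b => Subtype.ext (comm_cent ht a.2 b.2)
  set Z : Subgroup T := (Subgroup.center (GL (Fin 2) F)).subgroupOf T with hZ
  have hZm : ∀ s : T, s ∈ Z ↔ (s : GL (Fin 2) F) ∈ Subgroup.center (GL (Fin 2) F) := fun s => Iff.rfl
  have hcle : Subgroup.center (GL (Fin 2) F) ≤ T := fun z hz => by
    rw [hT, Subgroup.mem_centralizer_singleton_iff]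
    exact (Subgroup.mem_center_iff.1 hz t).symm
  have hcZ : Nat.card Z = q - 1 := by
    rw [← card_center (F := F)]
    exact Nat.card_congr (Subgroup.subgroupOfEquivOfLe hcle).toEquiv
  have hcT : Nat.card T = q ^ 2 - 1 := (S2303.result t).2 ht
  have hχ1 : χ 1 ≠ 0 := isIrr_apply_one_ne_zero hχ
  have hnat : ((q - 1 : ℕ) : ℂ) = (q : ℂ) - 1 := by
    rw [Nat.cast_sub (by omega), Nat.cast_one]
  have hψ : IsCharacter T (fun s : T => χ s) := isCharacter_comp T.subtype (isIrr_isCharacter hχ)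
  have hsq : q ^ 2 - 1 = (q + 1) * (q - 1) := by
    obtain ⟨m, hm⟩ : ∃ m, q = m + 1 := ⟨q - 1, by omega⟩
    rw [hm]
    simp only [Nat.add_sub_cancel]
    rw [Nat.sub_eq_iff_eq_add (by nlinarith)]
    ring
  obtain ⟨N, hN, hb⟩ := abel_bound hab Z hψ (fun s : T => χ s / χ 1) (fun a ha b hb => by
      obtain ⟨w, -, hw⟩ := CharDeep.DegreeBound.exists_omega hχ ((hZm b).1 hb)
      have h2 := hw 1
      rw [one_mul] at h2
      have h3 : χ ((a * b : T) : GL (Fin 2) F) = w * χ a := hw a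
      change χ ((a * b : T) : GL (Fin 2) F) / χ 1 = χ a / χ 1 * (χ b / χ 1)
      rw [h3, h2]
      field_simp)
    (fun a ha => by
      obtain ⟨w, hw1, hw⟩ := CharDeep.DegreeBound.exists_omega hχ ((hZm a).1 ha)
      have h2 := hw 1
      rw [one_mul] at h2
      change ‖χ a / χ 1‖ = 1
      rw [h2, mul_div_assoc, div_self hχ1, mul_one, hw1])
    (q - 1) (q + 1) (fun z hz => by
      rw [hnat, ← h1, mul_div_cancel₀ _ hχ1]) (by rw [hcT, hcZ, hsq])
  -- the sum over the centralizer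
  set S : Finset (GL (Fin 2) F) := Finset.univ.filter fun s => s ∈ T ∧ s ∉ Subgroup.center (GL (Fin 2) F) with hS
  have hsum : ∑ s : T, (if s ∈ Z then 0 else ‖χ s‖ ^ 2) = ∑ s ∈ S, ‖χ s‖ ^ 2 := by
    have e1 : ∑ s ∈ Finset.univ.filter (fun s : GL (Fin 2) F => s ∈ T),
        (if s ∉ Subgroup.center (GL (Fin 2) F) then ‖χ s‖ ^ 2 else 0) =
        ∑ s : {s : GL (Fin 2) F // s ∈ T}, (if (s : GL (Fin 2) F) ∉ Subgroup.center (GL (Fin 2) F) then ‖χ s‖ ^ 2 else 0) :=
      Finset.sum_subtype (p := fun s => s ∈ T) _ (fun s => by simp) _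
    rw [hS, ← Finset.filter_filter, Finset.sum_filter, e1]
    refine Finset.sum_congr rfl fun s _ => ?_
    by_cases hs : (s : GL (Fin 2) F) ∈ Subgroup.center (GL (Fin 2) F)
    · rw [if_pos ((hZm s).2 hs), if_neg (not_not.2 hs)]
    · rw [if_neg (fun h => hs ((hZm s).1 h)), if_pos hs]
  set Y : Finset (GL (Fin 2) F) := Finset.univ.filter fun s => s ∉ Subgroup.center (GL (Fin 2) F) with hY
  have hdc := double_count S Y (fun s => ‖χ s‖ ^ 2)
    (fun g s => by
      change ‖χ (g * s * g⁻¹)‖ ^ 2 = ‖χ s‖ ^ 2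
      rw [isIrr_isClassFunction hχ s g]) (fun y => by positivity)
    (fun s hs g => by
      rw [hS, Finset.mem_filter] at hs
      rw [hY, Finset.mem_filter]
      refine ⟨Finset.mem_univ _, fun h => hs.2.2 ?_⟩
      have h2 := (inferInstance : (Subgroup.center (GL (Fin 2) F)).Normal).conj_mem _ h g⁻¹
      have h3 : g⁻¹ * (g * s * g⁻¹) * g⁻¹⁻¹ = s := by group
      rwa [h3] at h2) (q ^ 2 - 1)
    (fun s hs => by
      rw [hS, Finset.mem_filter] at hs
      exact ((S2303.result s).2 (noEig_of_cent ht hs.2.1 hs.2.2)).le)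
    (fun s0 hs0 => by
      by_cases hex : ∃ s1 ∈ S, IsConj s0 s1 ∧ s1 ≠ s0
      · obtain ⟨s1, hs1, hc1, hne1⟩ := hex
        refine ⟨s1, fun s hs hc => ?_⟩
        rcases eq_or_ne s s0 with h | h
        · exact Or.inl h
        · right
          rw [hS, Finset.mem_filter] at hs0 hs1 hs
          have h2 := eq_of_conj ht hs0.2.1 hs1.2.1 hc1 hne1
          have h3 := eq_of_conj ht hs0.2.1 hs.2.1 hc h
          exact Units.ext (h3.trans h2.symm)
      · push Not at hex
        exact ⟨s0, fun s hs hc => Or.inl (hex s hs hc)⟩)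
  -- the sum over the noncentral elements
  have hYsum : ∑ y ∈ Y, ‖χ y‖ ^ 2 = (Nat.card (GL (Fin 2) F) : ℝ) - (q - 1) * (q - 1) ^ 2 := by
    have e1 := CharDeep.DegreeBound.sum_sq_irr hχ
    rw [← Finset.sum_filter_add_sum_filter_not Finset.univ (fun s => s ∈ Subgroup.center (GL (Fin 2) F))
      (fun g => ‖χ g‖ ^ 2)] at e1
    have e2 : ∑ g ∈ Finset.univ.filter (fun s => s ∈ Subgroup.center (GL (Fin 2) F)), ‖χ g‖ ^ 2 =
        (q - 1) * (q - 1) ^ 2 := by
      have e3 : ∀ g ∈ Finset.univ.filter (fun s => s ∈ Subgroup.center (GL (Fin 2) F)), ‖χ g‖ ^ 2 =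
          ((q : ℝ) - 1) ^ 2 := by
        intro g hg
        rw [Finset.mem_filter] at hg
        obtain ⟨w, hw1, hw⟩ := CharDeep.DegreeBound.exists_omega hχ hg.2
        have h2 := hw 1
        rw [one_mul] at h2
        rw [h2, norm_mul, hw1, one_mul, h1, ← hnat, Complex.norm_natCast, Nat.cast_sub (by omega), Nat.cast_one]
      rw [Finset.sum_congr rfl e3, Finset.sum_const, nsmul_eq_mul]
      congr 1
      have e4 : (Finset.univ.filter (fun s => s ∈ Subgroup.center (GL (Fin 2) F))).card = q - 1 := by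
        rw [← card_center (F := F), Nat.card_eq_fintype_card, Fintype.card_subtype]
      rw [e4, Nat.cast_sub (by omega), Nat.cast_one]
    rw [e2] at e1
    rw [← e1]
    ring
  rw [hYsum, ← hsum] at hdc
  set X := ∑ s : T, (if s ∈ Z then 0 else ‖χ s‖ ^ 2) with hX
  have hq' : (3 : ℝ) ≤ q := by exact_mod_cast hq
  have hcG : (Nat.card (GL (Fin 2) F) : ℝ) = ((q : ℝ) ^ 2 - 1) * ((q : ℝ) ^ 2 - q) := by
    rw [card_gl, ← hqd, Nat.cast_mul, Nat.cast_sub (by nlinarith), Nat.cast_sub (by nlinarith)]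
    push_cast
    ring
  have hcT' : ((q ^ 2 - 1 : ℕ) : ℝ) = (q : ℝ) ^ 2 - 1 := by
    rw [Nat.cast_sub (by nlinarith)]
    push_cast
    ring
  rw [hcT, hcZ, hcT', Nat.cast_sub (by omega : 1 ≤ q)] at hN
  rw [hcG, hcT'] at hdc
  push_cast at hN hdc
  have hN2 : (N : ℝ) < 3 := by
    by_contra hge
    push Not at hge
    have e1 : 3 * ((q : ℝ) ^ 2 - 1) ≤ 4 * (q - 1) + X := by nlinarith
    -- cancel `q ^ 2 - 1` and `q - 1`
    have e2 : (q : ℝ) * X ≤ 2 * ((q : ℝ) - 1) * (q ^ 2 + 1) := by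
      have hpos : (0 : ℝ) < ((q : ℝ) ^ 2 - 1) * (q - 1) := by nlinarith
      have e3 : ((q : ℝ) ^ 2 - 1) * (q - 1) * (q * X) ≤
          ((q : ℝ) ^ 2 - 1) * (q - 1) * (2 * ((q : ℝ) - 1) * (q ^ 2 + 1)) := by
        nlinarith [hdc]
      exact le_of_mul_le_mul_left e3 hpos
    nlinarith [mul_le_mul_of_nonneg_left e1 (by linarith : (0 : ℝ) ≤ q)]
  have hN3 : N ≤ 2 := by
    have : N < 3 := by exact_mod_cast hN2
    omega
  have h5 := hb ⟨t, by rw [hT, Subgroup.mem_centralizer_singleton_iff]⟩ (fun h => not_center ht ((hZm _).1 h))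
  refine h5.trans ?_
  exact_mod_cast hN3

/-- **task D of S3510-C** -/
theorem chi_bound (hq : 3 ≤ Fintype.card F) (χ : GL (Fin 2) F → ℂ) (hχ : IsIrrCharacter (GL (Fin 2) F) χ)
    (h1 : χ 1 ≠ 1) (t : GL (Fin 2) F) (ht : NoEig t) :
    ((Fintype.card F : ℝ) - 1) * ‖χ t‖ ≤ 2 * ‖χ 1‖ := by
  have hq' : (3 : ℝ) ≤ Fintype.card F := by exact_mod_cast hq
  rcases (S2298.result (F := F)).1 χ hχ with h | h | h | h
  · exact absurd h h1
  · have h2 := cusp_bound hq hχ h ht
    have h3 : ‖χ 1‖ = (Fintype.card F : ℝ) - 1 := by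
      have h4 : (Fintype.card F : ℂ) - 1 = (((Fintype.card F : ℝ) - 1 : ℝ) : ℂ) := by push_cast; rfl
      rw [h, h4, Complex.norm_real, Real.norm_eq_abs, abs_of_nonneg (by linarith)]
    rw [h3]
    nlinarith
  · have h2 := (S2320.result χ hχ h t).2 ht
    rw [h2, h, Complex.norm_natCast]
    linarith
  · have h2 := (S2309.result χ hχ t).2 h ht
    rw [h2, norm_zero, mul_zero]
    positivity

end final

end Cfsg.Agent.H273.RC
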