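import Cfsg.Agent.H170.RC.Four
import Cfsg.Agent.H955.QSpace

/-!
# S3510, row F even, box E5, case (3): two lemmas for helper551 (helper273)

* `card_plus` : the number of singular vectors of a 4-dimensional space of plus type;
* `exists_ss` : `Minus4 Q`: an element of prime order `≠ p` in `E Q` with a fixed vector.
-/

set_option autoImplicit false
set_option linter.unusedSectionVars false
open Cfsg

namespace Cfsg.Agent.H273.RC.Case3

open QuadraticMap Module
open scoped commutatorElement
open Cfsg.Agent.LieClassical.OrthCore Cfsg.Agent.LieClassical.OrthTrans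
open Cfsg.Agent.H170.RC Cfsg.Agent.H955

variable {F V : Type*} [Field F] [AddCommGroup V] [Module F V] {Q : QuadraticForm F V}

section ss

/-- a vector orthogonal to a hyperbolic pair and to a basis of its complement is zero -/
theorem eq_zero_of (h : Minus4 Q) {x y : V} (hxy : Hyp Q x y) {u w : V} (hxu : polar Q x u = 0) (hyu : polar Q y u = 0)
    (hxw : polar Q x w = 0) (hyw : polar Q y w = 0) (hind : ∀ a b : F, a • u + b • w = 0 → a = 0 ∧ b = 0) {v : V}
    (h1 : polar Q v x = 0) (h2 : polar Q v y = 0) (h3 : polar Q v u = 0) (h4 : polar Q v w = 0) : v = 0 := by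
  have hfin := h.fin
  have hli : LinearIndependent F ![x, y, u, w] := by
    rw [Fintype.linearIndependent_iff]
    intro g hg
    rw [Fin.sum_univ_four] at hg
    change g 0 • x + g 1 • y + g 2 • u + g 3 • w = 0 at hg
    have hxx : polar Q x x = 0 := polar_self_of_sing hxy.left
    have hyy : polar Q y y = 0 := polar_self_of_sing hxy.right
    have e1 : polar Q x (g 0 • x + g 1 • y + g 2 • u + g 3 • w) = 0 := by rw [hg, polar_zero_right]
    have e2 : polar Q y (g 0 • x + g 1 • y + g 2 • u + g 3 • w) = 0 := by rw [hg, polar_zero_right]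
    simp only [polar_add_right, polar_smul_right, hxx, hyy, hxy.pair, hxy.pair', hxu, hxw, hyu, hyw, smul_eq_mul,
      mul_zero, mul_one, add_zero, zero_add] at e1 e2
    rw [e1, e2, zero_smul, zero_smul, zero_add, zero_add] at hg
    obtain ⟨e3, e4⟩ := hind _ _ hg
    intro i
    fin_cases i
    · exact e2
    · exact e1
    · exact e3
    · exact e4
  have hsp : Submodule.span F (Set.range ![x, y, u, w]) = ⊤ :=
    hli.span_eq_top_of_card_eq_finrank (by rw [Fintype.card_fin, h.dim])
  refine h.nondeg v fun z => ?_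
  have hz : z ∈ Submodule.span F (Set.range ![x, y, u, w]) := by rw [hsp]; trivial
  induction hz using Submodule.span_induction with
  | mem z hz =>
    obtain ⟨i, rfl⟩ := hz
    fin_cases i
    · exact h1
    · exact h2
    · exact h3
    · exact h4
  | zero => exact polar_zero_right Q v
  | add a b _ _ ha hb => rw [polar_add_right, ha, hb, add_zero]
  | smul c a _ ha => rw [polar_smul_right, ha, smul_zero]

/-- two independent non-orthogonal vectors in the complement of a hyperbolic pair -/
theorem exists_uw (h : Minus4 Q) {x y : V} (hxy : Hyp Q x y) : ∃ u w : V, polar Q x u = 0 ∧ polar Q y u = 0 ∧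
    polar Q x w = 0 ∧ polar Q y w = 0 ∧ (∀ a b : F, a • u + b • w = 0 → a = 0 ∧ b = 0) ∧ polar Q u w ≠ 0 := by
  obtain ⟨r, s, h1, h2, h3, h4, h5⟩ := h.exists_rs hxy
  by_cases hrs : polar Q r s = 0
  · refine ⟨r, r + s, h1, h2, ?_, ?_, ?_, ?_⟩
    · rw [polar_add_right, h1, h3, add_zero]
    · rw [polar_add_right, h2, h4, add_zero]
    · intro a b hab
      have e : (a + b) • r + b • s = 0 := by
        rw [← hab]
        module
      obtain ⟨e1, e2⟩ := h5 _ _ e
      rw [e2, add_zero] at e1
      exact ⟨e1, e2⟩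
    · rw [polar_add_right, hrs, add_zero]
      intro hrr
      have hr : r = 0 := eq_zero_of h hxy h1 h2 h3 h4 h5 (by rw [polar_comm]; exact h1) (by rw [polar_comm]; exact h2)
        hrr hrs
      have := (h5 1 0 (by rw [hr]; simp)).1
      exact one_ne_zero this
  · exact ⟨r, s, h1, h2, h3, h4, h5, hrs⟩

theorem exists_ss_M [Finite F] (h : Minus4 Q) {p : ℕ} [hp : Fact p.Prime] [CharP F p] :
    ∃ g ∈ E Q, ∃ s : ℕ, s.Prime ∧ s ≠ p ∧ g ^ s = 1 ∧ g ≠ 1 ∧ ∃ v, v ≠ 0 ∧ g v = v := by
  have hfin := h.fin
  have : Finite V := Module.finite_of_finite F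
  have hfe : Finite (V ≃ₗ[F] V) := Finite.of_injective (fun e : V ≃ₗ[F] V => (e : V → V)) DFunLike.coe_injective
  obtain ⟨x, y, hxy⟩ := h.exists_hyp
  obtain ⟨u, w, hxu, hyu, hxw, hyw, hind, huw⟩ := exists_uw h hxy
  have hu0 : u ≠ 0 := by
    rintro rfl
    exact huw (polar_zero_left Q w)
  have hw0 : w ≠ 0 := by
    rintro rfl
    exact huw (polar_zero_right Q u)
  have hQu : Q u ≠ 0 := fun h0 => hu0 (h.aniso hxy hxu hyu h0)
  have hQw : Q w ≠ 0 := fun h0 => hw0 (h.aniso hxy hxw hyw h0)
  set g : V ≃ₗ[F] V := ⁅refl Q w hQw, refl Q u hQu⁆ with hg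
  have hgE : g ∈ E Q := by
    rw [← h.commutator_eq_E]
    exact Subgroup.commutator_mem_commutator (refl_mem_O _) (refl_mem_O _)
  have hfixr : ∀ {a : V} (ha : Q a ≠ 0) {z : V}, polar Q z a = 0 → refl Q a ha z = z := by
    intro a ha z hz
    rw [refl_apply, polar_comm Q a z, hz, mul_zero, zero_smul, sub_zero]
  have hgfix : ∀ z, polar Q z u = 0 → polar Q z w = 0 → g z = z := by
    intro z h1 h2
    rw [hg, commutatorElement_def, refl_inv, refl_inv]
    change refl Q w hQw (refl Q u hQu (refl Q w hQw (refl Q u hQu z))) = z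
    rw [hfixr hQu h1, hfixr hQw h2, hfixr hQu h1, hfixr hQw h2]
  have hgx : g x = x := hgfix x hxu hxw
  have hgy : g y = y := hgfix y hyu hyw
  have hgO : g ∈ O Q := by
    rw [hg, commutatorElement_def]
    exact mul_mem (mul_mem (mul_mem (refl_mem_O _) (refl_mem_O _)) (inv_mem (refl_mem_O _))) (inv_mem (refl_mem_O _))
  -- no fixed vectors in the plane
  have hno : ∀ v, polar Q x v = 0 → polar Q y v = 0 → g v = v → v = 0 := by
    intro v hxv hyv hgv
    have hgd : g = refl Q w hQw * (refl Q u hQu * refl Q w hQw * (refl Q u hQu)⁻¹) := by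
      rw [hg, commutatorElement_def, refl_inv hQw]
      group
    have hQw' : Q (refl Q u hQu w) ≠ 0 := by
      rw [mem_O.1 (refl_mem_O hQu)]
      exact hQw
    rw [refl_conj (refl_mem_O hQu) hQw hQw'] at hgd
    have h1 : refl Q (refl Q u hQu w) hQw' v = refl Q w hQw v := by
      have e : refl Q w hQw (refl Q (refl Q u hQu w) hQw' v) = v := by
        rw [hgd] at hgv
        exact hgv
      have e2 := congrArg (refl Q w hQw) e
      have e3 : refl Q w hQw (refl Q w hQw (refl Q (refl Q u hQu w) hQw' v)) = refl Q (refl Q u hQu w) hQw' v :=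
        reflLin_reflLin hQw _
      rw [e3] at e2
      exact e2
    set c : F := (Q u)⁻¹ * polar Q u w with hc
    have hc0 : c ≠ 0 := mul_ne_zero (inv_ne_zero hQu) huw
    have hw' : refl Q u hQu w = w - c • u := refl_apply hQu w
    have hQeq : Q (refl Q u hQu w) = Q w := mem_O.1 (refl_mem_O hQu) w
    rw [refl_apply, refl_apply hQw, hQeq, hw'] at h1
    have h2 : (((Q w)⁻¹ * polar Q (w - c • u) v) * c) • u +
        ((Q w)⁻¹ * polar Q w v - (Q w)⁻¹ * polar Q (w - c • u) v) • w = 0 := by
      have h3 := sub_eq_zero.2 h1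
      rw [← h3]
      module
    obtain ⟨h3, h4⟩ := hind _ _ h2
    have h5 : polar Q (w - c • u) v = 0 := by
      rcases mul_eq_zero.1 h3 with h6 | h6
      · exact (mul_eq_zero.1 h6).resolve_left (inv_ne_zero hQw)
      · exact absurd h6 hc0
    rw [h5, mul_zero, sub_zero] at h4
    have h6 : polar Q w v = 0 := (mul_eq_zero.1 h4).resolve_left (inv_ne_zero hQw)
    rw [polar_sub_left, polar_smul_left, h6, zero_sub, neg_eq_zero, smul_eq_mul] at h5
    have h7 : polar Q u v = 0 := (mul_eq_zero.1 h5).resolve_left hc0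
    exact eq_zero_of h hxy hxu hyu hxw hyw hind (by rw [polar_comm]; exact hxv) (by rw [polar_comm]; exact hyv)
      (by rw [polar_comm]; exact h7) (by rw [polar_comm]; exact h6)
  -- a prime different from `p`
  obtain ⟨s, hs, hsm, hsp⟩ : ∃ s : ℕ, s.Prime ∧ s ∣ orderOf g ∧ s ≠ p := by
    by_contra hcon
    push Not at hcon
    have h1 : orderOf g = p ^ (orderOf g).primeFactorsList.length :=
      Nat.eq_prime_pow_of_unique_prime_dvd (orderOf_pos g).ne' fun {d} hd hdm => hcon d hd hdm
    set k := (orderOf g).primeFactorsList.length with hk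
    have hgk : g ^ p ^ k = 1 := by rw [← h1, pow_orderOf_eq_one]
    let G : End F V := (g : V →ₗ[F] V)
    have : Nontrivial V := ⟨⟨u, 0, hu0⟩⟩
    have : CharP (End F V) p := charP_of_injective_algebraMap (FaithfulSMul.algebraMap_injective F _) p
    have hGk : G ^ p ^ k = 1 := by
      have e : ∀ n : ℕ, G ^ n = ((g ^ n : V ≃ₗ[F] V) : V →ₗ[F] V) := by
        intro n
        induction n with
        | zero => rfl
        | succ n ih => rw [pow_succ, ih, pow_succ]; rfl
      rw [e, hgk]
      rfl
    have h2 : (G - 1) ^ p ^ k = 0 := by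
      rw [sub_pow_char_pow_of_commute _ _ (Commute.one_right G), hGk, one_pow, sub_self]
    have h3 : ∀ n : ℕ, polar Q x (((G - 1) ^ n) u) = 0 ∧ polar Q y (((G - 1) ^ n) u) = 0 ∧ ((G - 1) ^ n) u ≠ 0 := by
      intro n
      induction n with
      | zero => exact ⟨hxu, hyu, hu0⟩
      | succ n ih =>
        rw [pow_succ', Module.End.mul_apply]
        set z := ((G - 1) ^ n) u with hz
        have e : (G - 1) z = g z - z := rfl
        have ex : polar Q x (g z) = 0 := by
          have := polar_map hgO x z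
          rw [hgx] at this
          rw [this]
          exact ih.1
        have ey : polar Q y (g z) = 0 := by
          have := polar_map hgO y z
          rw [hgy] at this
          rw [this]
          exact ih.2.1
        rw [e]
        refine ⟨by rw [polar_sub_right, ex, ih.1, sub_zero], by rw [polar_sub_right, ey, ih.2.1, sub_zero], ?_⟩
        intro h0
        exact ih.2.2 (hno z ih.1 ih.2.1 (sub_eq_zero.1 h0))
    apply (h3 (p ^ k)).2.2
    rw [h2]
    rfl
  obtain ⟨m, hm⟩ := hsm
  have hm0 : m ≠ 0 := by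
    rintro rfl
    have := orderOf_pos g
    omega
  refine ⟨g ^ m, pow_mem hgE m, s, hs, hsp, ?_, ?_, x, hxy.left_ne, ?_⟩
  · rw [← pow_mul, mul_comm, ← hm, pow_orderOf_eq_one]
  · intro h0
    have h1 := orderOf_dvd_of_pow_eq_one h0
    have h2 := Nat.le_of_dvd (Nat.pos_of_ne_zero hm0) h1
    rw [hm] at h2
    have h3 := hs.two_le
    have : 0 < m := Nat.pos_of_ne_zero hm0
    nlinarith
  · have : ∀ n : ℕ, (g ^ n) x = x := by
      intro n
      induction n with
      | zero => rfl
      | succ n ih =>
        rw [pow_succ]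
        change (g ^ n) (g x) = x
        rw [hgx, ih]
    exact this m

theorem exists_ss [Finite F] {p : ℕ} [CharP F p] (hQ : Nondeg Q) (h4 : finrank F V = 4)
    (hm : ∀ U : Submodule F V, (∀ v ∈ U, Q v = 0) → finrank F U ≤ 1) :
    ∃ g ∈ E Q, ∃ s : ℕ, s.Prime ∧ s ≠ p ∧ g ^ s = 1 ∧ g ≠ 1 ∧ ∃ v, v ≠ 0 ∧ g v = v := by
  have : Fact p.Prime := ⟨CharP.char_is_prime F p⟩
  exact exists_ss_M (Minus4.of_le_one hQ h4 hm)

end ss

section count

/-- the fibres of a nonzero linear form on a plane -/
theorem card_fibre [Finite F] {W : Type*} [AddCommGroup W] [Module F W] (hW : finrank F W = 2) {f : W →ₗ[F] F}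
    (hf : f ≠ 0) (a : F) : Nat.card {l : W // f l = a} = Nat.card F := by
  have hfd : FiniteDimensional F W := FiniteDimensional.of_finrank_pos (by rw [hW]; norm_num)
  have hr : LinearMap.range f = ⊤ := by
    rw [LinearMap.range_eq_top]
    exact LinearMap.surjective hf
  have hk : finrank F (LinearMap.ker f) = 1 := by
    have := LinearMap.finrank_range_add_finrank_ker f
    rw [hr, finrank_top, finrank_self, hW] at this
    omega
  obtain ⟨l0, hl0⟩ := LinearMap.range_eq_top.1 hr a
  let e : {l : W // f l = a} ≃ LinearMap.ker f :=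
    { toFun := fun l => ⟨l.1 - l0, by rw [LinearMap.mem_ker, map_sub, l.2, hl0, sub_self]⟩
      invFun := fun l => ⟨l.1 + l0, by rw [map_add, LinearMap.mem_ker.1 l.2, hl0, zero_add]⟩
      left_inv := fun l => Subtype.ext (sub_add_cancel _ _)
      right_inv := fun l => Subtype.ext (add_sub_cancel_right _ _) }
  rw [Nat.card_congr e, Module.natCard_eq_pow_finrank (K := F), hk, pow_one]

/-- the number of singular vectors in a 4-dimensional space of plus type -/
theorem card_plus [Finite F] (hQ : Nondeg Q) (h4 : finrank F V = 4) (L : Submodule F V) (hL : ∀ v ∈ L, Q v = 0)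
    (hL2 : finrank F L = 2) : Nat.card {v : V // Q v = 0} = Nat.card F ^ 3 + Nat.card F ^ 2 - Nat.card F := by
  classical
  have hfd : FiniteDimensional F V := FiniteDimensional.of_finrank_pos (by rw [h4]; norm_num)
  have hfV : Finite V := Module.finite_of_finite F
  obtain ⟨C, hC⟩ := Submodule.exists_isCompl L
  have hC2 : finrank F C = 2 := by
    have := Submodule.finrank_add_eq_of_isCompl hC
    omega
  have hLp : perp Q L = L := by
    symm
    apply Submodule.eq_of_le_of_finrank_eq
    · intro u hu w hw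
      rw [polar, hL _ (L.add_mem hw hu), hL w hw, hL u hu]
      simp
    · have := finrank_add_perp hQ L
      omega
  let E := Submodule.prodEquivOfIsCompl L C hC
  have hE : ∀ z, E z = (z.1 : V) + (z.2 : V) := fun z => rfl
  let fc : C → (L →ₗ[F] F) := fun c => (polarBilin Q (c : V)).comp L.subtype
  have hfc : ∀ c l, fc c l = polar Q (c : V) (l : V) := fun c l => rfl
  have hQE : ∀ (l : L) (c : C), Q ((l : V) + (c : V)) = Q (c : V) + fc c l := by
    intro l c
    rw [Q_add, hL l l.2, hfc, polar_comm Q (l : V)]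
    ring
  let e1 : {v : V // Q v = 0} ≃ (Σ c : C, {l : L // fc c l = -Q (c : V)}) :=
    { toFun := fun v => ⟨(E.symm v.1).2, (E.symm v.1).1, by
        have h1 := v.2
        have h2 : ((E.symm v.1).1 : V) + ((E.symm v.1).2 : V) = v.1 := E.apply_symm_apply v.1
        rw [← h2, hQE] at h1
        exact eq_neg_of_add_eq_zero_right h1⟩
      invFun := fun z => ⟨(z.2.1 : V) + (z.1 : V), by rw [hQE, z.2.2, add_neg_cancel]⟩
      left_inv := fun v => Subtype.ext (E.apply_symm_apply v.1)
      right_inv := fun z => by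
        obtain ⟨c, l, hl⟩ := z
        have h2 : E.symm ((l : V) + (c : V)) = (l, c) := E.symm_apply_apply (l, c)
        have h3 : (E.symm ((l : V) + (c : V))).2 = c := by rw [h2]
        have h4 : (E.symm ((l : V) + (c : V))).1 = l := by rw [h2]
        refine Sigma.ext h3 ?_
        refine (Subtype.heq_iff_coe_eq ?_).2 h4
        intro x
        dsimp only
        rw [h3] }
  have := Fintype.ofFinite C
  have := Fintype.ofFinite L
  rw [Nat.card_congr e1, Nat.card_sigma, ← Finset.add_sum_erase _ _ (Finset.mem_univ (0 : C))]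
  have h0 : Nat.card {l : L // fc 0 l = -Q ((0 : C) : V)} = Nat.card F ^ 2 := by
    rw [← hL2, ← Module.natCard_eq_pow_finrank (K := F) (V := L)]
    refine Nat.card_congr (Equiv.subtypeUnivEquiv fun l => ?_)
    rw [hfc, ZeroMemClass.coe_zero, polar_zero_left, QuadraticMap.map_zero, neg_zero]
  have h1 : ∀ c ∈ Finset.univ.erase (0 : C), Nat.card {l : L // fc c l = -Q (c : V)} = Nat.card F := by
    intro c hc
    refine card_fibre hL2 ?_ _
    intro h
    apply Finset.ne_of_mem_erase hc
    have h2 : (c : V) ∈ L := by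
      rw [← hLp, mem_perp']
      intro w hw
      exact LinearMap.congr_fun h (⟨w, hw⟩ : L)
    have h3 : (c : V) ∈ L ⊓ C := ⟨h2, c.2⟩
    rw [hC.inf_eq_bot, Submodule.mem_bot] at h3
    exact Subtype.ext h3
  rw [h0, Finset.sum_congr rfl h1, Finset.sum_const, Finset.card_erase_of_mem (Finset.mem_univ _), Finset.card_univ,
    ← Nat.card_eq_fintype_card, Module.natCard_eq_pow_finrank (K := F) (V := C), hC2, smul_eq_mul, Nat.sub_mul,
    one_mul]
  have hq : 0 < Nat.card F := Nat.card_pos
  have h3 : Nat.card F ≤ Nat.card F ^ 2 * Nat.card F := Nat.le_mul_of_pos_left _ (by positivity)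
  have h4 : Nat.card F ^ 3 = Nat.card F ^ 2 * Nat.card F := by ring
  rw [h4]
  omega

end count

end Cfsg.Agent.H273.RC.Case3
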