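import Cfsg.Agent.H955.QSpace
import Cfsg.Agent.J3.Fix
import Cfsg.Agent.LieClassical.OrthFinite

/-!
# S3510, row F, even dimension, box E5: linear algebra (helper273)

* `plane_nondeg` : planes;
* `fix_nondeg`, `fix_split` : the fixed vectors of an isometry of prime order `r ≠ 0` in `F`;
* `gs` : the sign sum `∑ (-1)^{Q v}` over the field with 2 elements, `gs_mul`, `gs_pos`, `gs_plane`;
* `exists_plane_two` : in a nondegenerate `D'` of dimension `≥ 4` over `F₂` there is a nondegenerate plane whose
  complement (in `V`) is not of plus type;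
* `eq_seven` : a fixed point free isometry of prime order of `6⁺(2)` has order 7.
-/

set_option autoImplicit false
set_option linter.unusedSectionVars false
open Cfsg

namespace Cfsg.Agent.H273.RC.Fev

open QuadraticMap Module
open Cfsg.Agent.LieClassical.OrthCore Cfsg.Agent.LieClassical.OrthTrans Cfsg.Agent.H955

section gen

variable {F V : Type*} [Field F] [AddCommGroup V] [Module F V] {Q : QuadraticForm F V}

theorem polar_iso {T : V ≃ₗ[F] V} (hT : ∀ v, Q (T v) = Q v) (v w : V) : polar Q (T v) (T w) = polar Q v w := by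
  rw [polar, polar, ← map_add, hT, hT, hT]

theorem pow_inv {T : V ≃ₗ[F] V} {D : Submodule F V} (hD : ∀ v ∈ D, T v ∈ D) (n : ℕ) : ∀ v ∈ D, (T ^ n) v ∈ D := by
  induction n with
  | zero => exact fun v hv => hv
  | succ n ih =>
    intro v hv
    rw [pow_succ]
    exact ih _ (hD v hv)

theorem pow_iso {T : V ≃ₗ[F] V} (hT : ∀ v, Q (T v) = Q v) (n : ℕ) : ∀ v, Q ((T ^ n) v) = Q v := by
  induction n with
  | zero => exact fun v => rfl
  | succ n ih =>
    intro v
    rw [pow_succ]
    exact (ih _).trans (hT v)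

/-- the orthogonal complement of an invariant subspace is invariant -/
theorem perp_inv [FiniteDimensional F V] {T : V ≃ₗ[F] V} (hT : ∀ v, Q (T v) = Q v) {D : Submodule F V}
    (hD : ∀ v ∈ D, T v ∈ D) : ∀ v ∈ perp Q D, T v ∈ perp Q D := by
  have h1 : D.map (T : V →ₗ[F] V) = D := by
    apply Submodule.eq_of_le_of_finrank_eq
    · rintro _ ⟨v, hv, rfl⟩
      exact hD v hv
    · exact LinearEquiv.finrank_map_eq T D
  intro v hv w hw
  rw [← h1] at hw
  obtain ⟨u, hu, rfl⟩ := hw
  change polar Q (T u) (T v) = 0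
  rw [polar_iso hT]
  exact hv u hu

theorem det_zero {x y : V} (hxy : 4 * Q x * Q y ≠ polar Q x y ^ 2) {a b : F}
    (h1 : polar Q (a • x + b • y) x = 0) (h2 : polar Q (a • x + b • y) y = 0) : a = 0 ∧ b = 0 := by
  rw [polar_add_left, polar_smul_left, polar_smul_left, polar_self', polar_comm Q y x] at h1
  rw [polar_add_left, polar_smul_left, polar_smul_left, polar_self'] at h2
  simp only [smul_eq_mul] at h1 h2
  have hd : 4 * Q x * Q y - polar Q x y ^ 2 ≠ 0 := sub_ne_zero.2 hxy
  constructor
  · have h3 : (4 * Q x * Q y - polar Q x y ^ 2) * a = 0 := by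
      linear_combination 2 * Q y * h1 - polar Q x y * h2
    exact (mul_eq_zero.1 h3).resolve_left hd
  · have h3 : (4 * Q x * Q y - polar Q x y ^ 2) * b = 0 := by
      linear_combination 2 * Q x * h2 - polar Q x y * h1
    exact (mul_eq_zero.1 h3).resolve_left hd

/-- nondegenerate planes -/
theorem plane_nondeg {x y : V} (hxy : 4 * Q x * Q y ≠ polar Q x y ^ 2) :
    Nondeg (res Q (Submodule.span F {x, y})) ∧ finrank F (Submodule.span F {x, y}) = 2 := by
  constructor
  · rw [nondeg_res_iff]
    intro v hv h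
    obtain ⟨a, b, rfl⟩ := Submodule.mem_span_pair.1 hv
    obtain ⟨rfl, rfl⟩ := det_zero hxy (h x (Submodule.mem_span_pair.2 ⟨1, 0, by simp⟩))
      (h y (Submodule.mem_span_pair.2 ⟨0, 1, by simp⟩))
    simp
  · have hli : LinearIndependent F ![x, y] := by
      rw [LinearIndependent.pair_iff]
      intro a b hab
      exact det_zero hxy (by rw [hab, polar_zero_left]) (by rw [hab, polar_zero_left])
    have h1 := finrank_span_eq_card hli
    have h2 : Set.range ![x, y] = {x, y} := by
      simp only [Matrix.range_cons, Matrix.range_empty, Set.union_empty]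
      rfl
    rw [Fintype.card_fin, h2] at h1
    exact h1

/-! ### fixed vectors -/

/-- the fixed vectors of `T` in `W` -/
def fixIn (T : V ≃ₗ[F] V) (W : Submodule F V) : Submodule F V where
  carrier := {v | v ∈ W ∧ T v = v}
  add_mem' := fun ha hb => ⟨W.add_mem ha.1 hb.1, by rw [map_add, ha.2, hb.2]⟩
  zero_mem' := ⟨W.zero_mem, map_zero _⟩
  smul_mem' := fun c _ h => ⟨W.smul_mem c h.1, by rw [map_smul, h.2]⟩

theorem mem_fixIn {T : V ≃ₗ[F] V} {W : Submodule F V} {v : V} : v ∈ fixIn T W ↔ v ∈ W ∧ T v = v := Iff.rfl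

/-- the fixed vectors form a nondegenerate subspace -/
theorem fix_nondeg {T : V ≃ₗ[F] V} (hT : ∀ v, Q (T v) = Q v) {r : ℕ} (hr : (r : F) ≠ 0) (hTr : T ^ r = 1)
    {W : Submodule F V} (hW : Nondeg (res Q W)) (hi : ∀ v ∈ W, T v ∈ W) : Nondeg (res Q (fixIn T W)) := by
  rw [nondeg_res_iff] at hW ⊢
  intro c hc h
  refine hW c hc.1 fun w hw => ?_
  have hfix : ∀ k : ℕ, (T ^ k) c = c := by
    intro k
    induction k with
    | zero => rfl
    | succ k ih =>
      rw [pow_succ]
      change (T ^ k) (T c) = c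
      rw [hc.2, ih]
  set s : V := ∑ k ∈ Finset.range r, (T ^ k) w with hs
  have hsf : T s = s := by
    rw [hs, map_sum]
    have h1 : ∀ k, T ((T ^ k) w) = (T ^ (k + 1)) w := fun k => by rw [pow_succ']; rfl
    rw [Finset.sum_congr rfl fun k _ => h1 k]
    have h2 := Finset.sum_range_succ (fun k => (T ^ k) w) r
    have h3 := Finset.sum_range_succ' (fun k => (T ^ k) w) r
    rw [h2] at h3
    rw [hTr, pow_zero] at h3
    exact (add_right_cancel h3).symm
  have h1 : polar Q c s = 0 := h s ⟨Submodule.sum_mem _ fun k _ => pow_inv hi k w hw, hsf⟩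
  have h2 : ∀ k : ℕ, polar Q c ((T ^ k) w) = polar Q c w := by
    intro k
    conv_lhs => rw [← hfix k]
    exact polar_iso (T := T ^ k) (pow_iso hT k) c w
  have h3 : polar Q c s = ∑ k ∈ Finset.range r, polar Q c ((T ^ k) w) := by
    rw [hs]
    exact map_sum (polarBilin Q c) _ _
  rw [h3, Finset.sum_congr rfl fun k _ => h2 k, Finset.sum_const, Finset.card_range, nsmul_eq_mul] at h1
  exact (mul_eq_zero.1 h1).resolve_left hr

/-- the complement of a nondegenerate subspace in a nondegenerate subspace -/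
theorem sub_perp [FiniteDimensional F V] (hQ : Nondeg Q) {C W : Submodule F V} (hC : Nondeg (res Q C)) (hW : Nondeg (res Q W))
    (h : C ≤ W) : Nondeg (res Q (W ⊓ perp Q C)) ∧ finrank F C + finrank F ↥(W ⊓ perp Q C) = finrank F W := by
  have hc := isCompl_perp hC
  constructor
  · rw [nondeg_res_iff] at hW ⊢
    intro x hx hxy
    refine hW x hx.1 fun w hw => ?_
    obtain ⟨c, hcC, e, he, rfl⟩ : ∃ c ∈ C, ∃ e ∈ perp Q C, c + e = w := by
      have h1 : w ∈ C ⊔ perp Q C := by rw [hc.sup_eq_top]; trivial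
      exact Submodule.mem_sup.1 h1
    have heW : e ∈ W := by
      have := W.sub_mem hw (h hcC)
      rwa [add_sub_cancel_left] at this
    rw [polar_add_right, hxy e ⟨heW, he⟩, add_zero]
    exact mem_perp'.1 hx.2 c hcC
  · have h1 := Submodule.finrank_sup_add_finrank_inf_eq W (perp Q C)
    have h2 : W ⊔ perp Q C = ⊤ := by
      rw [eq_top_iff, ← hc.sup_eq_top]
      exact sup_le_sup_right h _
    rw [h2, finrank_top] at h1
    have h3 := finrank_add_perp hQ C
    omega

theorem two_le_of_char [FiniteDimensional F V] (h2 : (2 : F) = 0) {D : Submodule F V} (hD : Nondeg (res Q D)) (h0 : D ≠ ⊥) :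
    2 ≤ finrank F D := by
  by_contra hlt
  have h1 : finrank F D = 1 := by
    have : finrank F D ≠ 0 := fun h => h0 (Submodule.finrank_eq_zero.1 h)
    omega
  obtain ⟨v, hv0, hv⟩ := finrank_eq_one_iff'.1 h1
  apply hv0
  refine hD v fun y => ?_
  obtain ⟨c, rfl⟩ := hv y
  rw [polar_smul_right, polar_self', h2, zero_mul, smul_zero]

/-- a nonzero nondegenerate subspace contains a vector `v` with `Q v ≠ 0` -/
theorem exists_nonsing {D : Submodule F V} (hD : Nondeg (res Q D)) (h0 : D ≠ ⊥) : ∃ z ∈ D, Q z ≠ 0 := by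
  by_contra hcon
  push Not at hcon
  apply h0
  rw [Submodule.eq_bot_iff]
  rw [nondeg_res_iff] at hD
  intro x hx
  refine hD x hx fun y hy => ?_
  rw [polar, hcon _ (D.add_mem hx hy), hcon x hx, hcon y hy]
  simp

end gen

/-! ### sign sums over the field with two elements -/

section two

variable {F : Type*} [Field F]

open Classical in
/-- the sign -/
noncomputable def sgn (a : F) : ℤ := if a = 0 then 1 else -1

theorem sgn_zero : sgn (0 : F) = 1 := by simp [sgn]

theorem sgn_ne {a : F} (h : a ≠ 0) : sgn a = -1 := by simp [sgn, h]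

theorem eq_one (hF : Nat.card F = 2) {a : F} (h : a ≠ 0) : a = 1 := by
  obtain ⟨y, hy, hu⟩ := (Nat.card_eq_two_iff' (0 : F)).1 hF
  rw [hu a h, hu 1 one_ne_zero]

theorem two_zero (hF : Nat.card F = 2) : (2 : F) = 0 := by
  by_contra h
  have h1 := eq_one hF h
  have : (1 : F) = 0 := by linear_combination h1
  exact one_ne_zero this

theorem sgn_add (hF : Nat.card F = 2) (a b : F) : sgn (a + b) = sgn a * sgn b := by
  by_cases ha : a = 0
  · rw [ha, zero_add, sgn_zero, one_mul]
  by_cases hb : b = 0
  · rw [hb, add_zero, sgn_zero, mul_one]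
  rw [sgn_ne ha, sgn_ne hb, eq_one hF ha, eq_one hF hb, one_add_one_eq_two, two_zero hF, sgn_zero]
  norm_num

/-- the sign sum of a quadratic form -/
noncomputable def gs {W : Type*} [AddCommGroup W] [Module F W] (R : QuadraticForm F W) : ℤ := ∑ᶠ w : W, sgn (R w)

theorem gs_of_equiv {W W' : Type*} [AddCommGroup W] [Module F W] [AddCommGroup W'] [Module F W']
    {R : QuadraticForm F W} {R' : QuadraticForm F W'} (e : W ≃ W') (h : ∀ w, R' (e w) = R w) : gs R = gs R' := by
  rw [gs, gs]
  exact finsum_eq_of_bijective e e.bijective fun w => by rw [h]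

variable {V : Type*} [AddCommGroup V] [Module F V] {Q : QuadraticForm F V}

theorem gs_mul [FiniteDimensional F V] (hF : Nat.card F = 2) {W : Submodule F V} (hW : Nondeg (res Q W)) :
    gs Q = gs (res Q W) * gs (res Q (perp Q W)) := by
  have : Finite F := Nat.finite_of_card_ne_zero (by omega)
  have : Finite V := Module.finite_of_finite F
  have := Fintype.ofFinite V
  have := Fintype.ofFinite W
  have := Fintype.ofFinite (perp Q W)
  rw [gs, gs, gs, finsum_eq_sum_of_fintype, finsum_eq_sum_of_fintype, finsum_eq_sum_of_fintype, Finset.sum_mul_sum,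
    ← Finset.sum_product']
  symm
  refine Fintype.sum_equiv (decomp hW).toEquiv _ _ fun x => ?_
  change _ = sgn (Q (decomp hW x))
  rw [Q_decomp, sgn_add hF]
  rfl

/-- a nonzero linear form has sign sum zero -/
theorem lin_sum (hF : Nat.card F = 2) {W : Type*} [AddCommGroup W] [Module F W] [Fintype W] (f : W →ₗ[F] F)
    {w : W} (hw : f w ≠ 0) : ∑ v : W, sgn (f v) = 0 := by
  have h1 : ∑ v : W, sgn (f v) = ∑ v : W, sgn (f (v + w)) :=
    (Equiv.sum_comp (Equiv.addRight w) fun v => sgn (f v)).symm
  have h2 : ∑ v : W, sgn (f (v + w)) = -∑ v : W, sgn (f v) := by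
    rw [← Finset.sum_neg_distrib]
    refine Finset.sum_congr rfl fun v _ => ?_
    rw [map_add, sgn_add hF, sgn_ne hw, mul_neg_one]
  omega

theorem gs_plus [FiniteDimensional F V] (hF : Nat.card F = 2) (hQ : Nondeg Q) {U : Submodule F V}
    (hU : ∀ u ∈ U, Q u = 0) (hd : 2 * finrank F U = finrank F V) : gs Q = Nat.card U := by
  classical
  have : Finite F := Nat.finite_of_card_ne_zero (by omega)
  have : Finite V := Module.finite_of_finite F
  have := Fintype.ofFinite V
  have := Fintype.ofFinite U
  have hUp : perp Q U = U := by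
    symm
    apply Submodule.eq_of_le_of_finrank_eq
    · intro u hu w hw
      rw [polar, hU _ (U.add_mem hw hu), hU w hw, hU u hu]
      simp
    · have := finrank_add_perp hQ U
      omega
  have h1 : ∀ u : U, gs Q = ∑ v : V, sgn (Q (v + u)) := by
    intro u
    rw [gs, finsum_eq_sum_of_fintype]
    exact (Equiv.sum_comp (Equiv.addRight (u : V)) fun v => sgn (Q v)).symm
  have h2 : (Fintype.card U : ℤ) * gs Q = ∑ u : U, ∑ v : V, sgn (Q (v + u)) := by
    rw [Finset.sum_congr rfl fun u _ => (h1 u).symm, Finset.sum_const, Finset.card_univ, nsmul_eq_mul]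
  rw [Finset.sum_comm] at h2
  have h3 : ∀ v : V, ∑ u : U, sgn (Q (v + u)) = if v ∈ U then (Fintype.card U : ℤ) else 0 := by
    intro v
    split_ifs with hv
    · rw [Finset.sum_congr rfl fun u _ => by rw [hU _ (U.add_mem hv u.2), sgn_zero]]
      simp
    · rw [← hUp, mem_perp'] at hv
      push Not at hv
      obtain ⟨w, hw, hvw⟩ := hv
      have h4 : ∀ u : U, sgn (Q (v + u)) = sgn (Q v) * sgn ((polarBilin Q v).comp U.subtype u) := by
        intro u
        rw [← sgn_add hF]
        congr 1
        change Q (v + u) = Q v + polar Q v u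
        rw [polar, hU u u.2]
        ring
      rw [Finset.sum_congr rfl fun u _ => h4 u, ← Finset.mul_sum,
        lin_sum hF ((polarBilin Q v).comp U.subtype) (w := ⟨w, hw⟩) hvw, mul_zero]
  rw [Finset.sum_congr rfl fun v _ => h3 v, Finset.sum_ite, Finset.sum_const_zero, add_zero, Finset.sum_const,
    nsmul_eq_mul] at h2
  have h5 : (Finset.univ.filter fun v : V => v ∈ U).card = Fintype.card U := (Fintype.card_subtype _).symm
  rw [h5] at h2
  have h6 : (Fintype.card U : ℤ) ≠ 0 := by
    have : 0 < Fintype.card U := Fintype.card_pos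
    omega
  rw [Nat.card_eq_fintype_card]
  exact mul_left_cancel₀ h6 h2

theorem gs_aniso [Finite V] (h : ∀ v, v ≠ 0 → Q v ≠ 0) : gs Q = 2 - Nat.card V := by
  classical
  have := Fintype.ofFinite V
  rw [gs, finsum_eq_sum_of_fintype, ← Finset.add_sum_erase _ _ (Finset.mem_univ (0 : V)), map_zero, sgn_zero,
    Finset.sum_congr rfl fun v hv => by rw [sgn_ne (h v (Finset.ne_of_mem_erase hv))], Finset.sum_const,
    Finset.card_erase_of_mem (Finset.mem_univ _), Finset.card_univ, Nat.card_eq_fintype_card]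
  have : 0 < Fintype.card V := Fintype.card_pos
  rw [nsmul_eq_mul]
  push_cast [Nat.sub_add_cancel, this]
  omega

/-- the number of singular vectors -/
theorem card_sing [Finite V] : 2 * (Nat.card {v : V // Q v = 0} : ℤ) = Nat.card V + gs Q := by
  classical
  have := Fintype.ofFinite V
  rw [gs, finsum_eq_sum_of_fintype, Nat.card_eq_fintype_card, Nat.card_eq_fintype_card, Fintype.card_subtype]
  have h1 : ∑ v : V, sgn (Q v) = ∑ v : V, (if Q v = 0 then (2 : ℤ) else 0) + ∑ _v : V, (-1 : ℤ) := by
    rw [← Finset.sum_add_distrib]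
    refine Finset.sum_congr rfl fun v _ => ?_
    unfold sgn
    split_ifs <;> norm_num
  rw [h1, Finset.sum_ite, Finset.sum_const_zero, add_zero, Finset.sum_const, Finset.sum_const, Finset.card_univ]
  simp only [nsmul_eq_mul]
  ring

/-- two planes of different type -/
theorem exists_planes [FiniteDimensional F V] (hF : Nat.card F = 2) {D : Submodule F V}
    (hD : Nondeg (res Q D)) (hd : 4 ≤ finrank F D) :
    (∃ P ≤ D, Nondeg (res Q P) ∧ finrank F P = 2 ∧ 0 < gs (res Q P)) ∧
      ∃ P ≤ D, Nondeg (res Q P) ∧ finrank F P = 2 ∧ gs (res Q P) < 0 := by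
  have hfin : Finite F := Nat.finite_of_card_ne_zero (by omega)
  have : Finite V := Module.finite_of_finite F
  have h2 := two_zero hF
  obtain ⟨x, hxD, hx0, hx⟩ := Cfsg.Agent.LieClassical.OrthFinite.exists_sing_mem (Q := Q) D (by omega)
  obtain ⟨⟨y, hyD⟩, hxy⟩ := Cfsg.Agent.LieClassical.OrthTrans.exists_hyp (Q := res Q D) (x := ⟨x, hxD⟩) hD hx
    (fun h => hx0 (congrArg Subtype.val h))
  have hy : Q y = 0 := hxy.right
  have hp : polar Q x y = 1 := hxy.pair
  have hP : ∀ {a b : V}, polar Q a b = 1 → 4 * Q a * Q b ≠ polar Q a b ^ 2 := by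
    intro a b hab h
    rw [hab] at h
    have : (1 : F) = 0 := by linear_combination 2 * Q a * Q b * h2 - h
    exact one_ne_zero this
  have hle : ∀ {a b : V}, a ∈ D → b ∈ D → Submodule.span F {a, b} ≤ D := by
    intro a b ha hb
    rw [Submodule.span_le]
    rintro z (rfl | rfl)
    · exact ha
    · exact hb
  have hH := plane_nondeg (Q := Q) (hP hp)
  refine ⟨⟨Submodule.span F {x, y}, hle hxD hyD, hH.1, hH.2, ?_⟩, ?_⟩
  · have h3 : gs (res Q (Submodule.span F {x, y})) =
        Nat.card (Submodule.span F {(⟨x, Submodule.mem_span_pair.2 ⟨1, 0, by simp⟩⟩ : Submodule.span F {x, y})}) := by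
      refine gs_plus hF hH.1 ?_ ?_
      · intro u hu
        obtain ⟨c, rfl⟩ := Submodule.mem_span_singleton.1 hu
        rw [QuadraticMap.map_smul]
        change _ • Q x = 0
        rw [hx, smul_zero]
      · rw [finrank_span_singleton, hH.2]
        intro h
        exact hx0 (congrArg Subtype.val h)
    rw [h3]
    exact_mod_cast Nat.card_pos
  · -- the complement of the hyperbolic plane
    have hC := nondeg_res_iff.1 hD
    set H := Submodule.span F {x, y} with hHd
    have hrk : 2 ≤ finrank F ↥(D ⊓ perp Q H) := by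
      have h3 := Submodule.finrank_sup_add_finrank_inf_eq D (perp Q H)
      have h4 : D ⊔ perp Q H = ⊤ := by
        rw [eq_top_iff, ← (isCompl_perp hH.1).sup_eq_top]
        exact sup_le_sup_right (hle hxD hyD) _
      have h5 : finrank F H + finrank F (perp Q H) = finrank F V :=
        Submodule.finrank_add_eq_of_isCompl (isCompl_perp hH.1)
      rw [h4, finrank_top] at h3
      have h6 := hH.2
      omega
    have hnd : Nondeg (res Q (D ⊓ perp Q H)) := by
      rw [nondeg_res_iff]
      intro v hv h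
      refine hC v hv.1 fun w hw => ?_
      obtain ⟨c, hcC, e, he, rfl⟩ : ∃ c ∈ H, ∃ e ∈ perp Q H, c + e = w := by
        have h1 : w ∈ H ⊔ perp Q H := by rw [(isCompl_perp hH.1).sup_eq_top]; trivial
        exact Submodule.mem_sup.1 h1
      have heW : e ∈ D := by
        have := D.sub_mem hw (hle hxD hyD hcC)
        rwa [add_sub_cancel_left] at this
      rw [polar_add_right, h e ⟨heW, he⟩, add_zero]
      exact mem_perp'.1 hv.2 c hcC
    obtain ⟨z, hz, hQz⟩ := exists_nonsing hnd (by
      intro h
      rw [h, finrank_bot] at hrk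
      omega)
    have hz1 : Q z = 1 := eq_one hF hQz
    have hxz : polar Q x z = 0 := hz.2 x (Submodule.mem_span_pair.2 ⟨1, 0, by simp⟩)
    have hyz : polar Q y z = 0 := hz.2 y (Submodule.mem_span_pair.2 ⟨0, 1, by simp⟩)
    have ha : Q (x + y) = 1 := by rw [Q_add, hx, hy, hp]; ring
    have hb : Q (x + z) = 1 := by rw [Q_add, hx, hz1, hxz]; ring
    have hab : polar Q (x + y) (x + z) = 1 := by
      rw [polar_add_left, polar_add_right, polar_add_right, polar_self', hx, hxz, polar_comm Q y x, hp, hyz]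
      ring
    have hK := plane_nondeg (Q := Q) (hP hab)
    refine ⟨Submodule.span F {x + y, x + z}, hle (D.add_mem hxD hyD) (D.add_mem hxD hz.1), hK.1, hK.2, ?_⟩
    rw [gs_aniso, Module.natCard_eq_pow_finrank (K := F), hF, hK.2]
    · norm_num
    · rintro ⟨v, hv⟩ hv0 hQv
      apply hv0
      apply Subtype.ext
      change Q v = 0 at hQv
      obtain ⟨c, d, rfl⟩ := Submodule.mem_span_pair.1 hv
      change c • (x + y) + d • (x + z) = 0
      rw [Q_add, QuadraticMap.map_smul, QuadraticMap.map_smul, polar_smul_left, polar_smul_right, ha, hb, hab] at hQv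
      simp only [smul_eq_mul, mul_one] at hQv
      by_cases hc : c = 0
      · by_cases hd' : d = 0
        · rw [hc, hd']; simp
        · rw [hc, eq_one hF hd'] at hQv
          exfalso
          have : (1 : F) = 0 := by linear_combination hQv
          exact one_ne_zero this
      · by_cases hd' : d = 0
        · rw [eq_one hF hc, hd'] at hQv
          exfalso
          have : (1 : F) = 0 := by linear_combination hQv
          exact one_ne_zero this
        · rw [eq_one hF hc, eq_one hF hd'] at hQv
          exfalso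
          have : (1 : F) = 0 := by linear_combination hQv - h2
          exact one_ne_zero this

/-- a plane whose complement is not of plus type -/
theorem exists_plane_two [FiniteDimensional F V] (hF : Nat.card F = 2) (hQ : Nondeg Q) {D : Submodule F V}
    (hD : Nondeg (res Q D)) (hd : 4 ≤ finrank F D) :
    ∃ P ≤ D, Nondeg (res Q P) ∧ finrank F P = 2 ∧ ¬ IsPlus (res Q (perp Q P)) := by
  have hfin : Finite F := Nat.finite_of_card_ne_zero (by omega)
  have : Finite V := Module.finite_of_finite F
  obtain ⟨⟨P, hPD, hP, hP2, hPs⟩, P', hPD', hP', hP2', hPs'⟩ := exists_planes hF hD hd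
  have hpos : ∀ P : Submodule F V, Nondeg (res Q P) → IsPlus (res Q (perp Q P)) → 0 < gs (res Q (perp Q P)) := by
    rintro P hP ⟨U, hU, hd⟩
    rw [gs_plus hF (nondeg_perp hQ hP) hU hd]
    exact_mod_cast Nat.card_pos
  rcases le_or_gt (gs Q) 0 with h | h
  · refine ⟨P, hPD, hP, hP2, fun hpl => ?_⟩
    have h1 := hpos P hP hpl
    have h2 := gs_mul (Q := Q) hF hP
    have h3 := mul_pos hPs h1
    omega
  · refine ⟨P', hPD', hP', hP2', fun hpl => ?_⟩
    have h1 := hpos P' hP' hpl
    have h2 := gs_mul (Q := Q) hF hP'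
    have h3 := mul_neg_of_neg_of_pos hPs' h1
    omega

/-- a fixed point free isometry of prime order of a space of type `6⁺(2)` has order 7 -/
theorem eq_seven [FiniteDimensional F V] (hF : Nat.card F = 2) {D : Submodule F V} (hD : Nondeg (res Q D))
    (h6 : finrank F D = 6) {U : Submodule F D} (hU : ∀ u ∈ U, Q (u : V) = 0) (hU3 : finrank F U = 3)
    {T : V ≃ₗ[F] V} (hT : ∀ v, Q (T v) = Q v) (hi : ∀ v ∈ D, T v ∈ D) {r : ℕ} (hr : r.Prime) (hTr : T ^ r = 1)
    (hfix : fixIn T D = ⊥) : r = 7 := by
  have hfin : Finite F := Nat.finite_of_card_ne_zero (by omega)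
  have : Finite V := Module.finite_of_finite F
  have h64 : Nat.card D = 64 := by
    rw [Module.natCard_eq_pow_finrank (K := F), hF, h6]
    norm_num
  have h8 : Nat.card U = 8 := by
    rw [Module.natCard_eq_pow_finrank (K := F), hF, hU3]
    norm_num
  have h36 : Nat.card {v : D // res Q D v = 0} = 36 := by
    have h1 := card_sing (Q := res Q D)
    rw [gs_plus hF hD hU (by rw [h6, hU3]), h64, h8] at h1
    omega
  have hf0 : ∀ v ∈ D, T v = v → v = 0 := by
    intro v hv h
    have : v ∈ fixIn T D := ⟨hv, h⟩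
    rwa [hfix, Submodule.mem_bot] at this
  -- all vectors
  let f : D → D := fun v => ⟨T v, hi v v.2⟩
  have hf : ∀ n (v : D), ((f^[n] v : D) : V) = (T ^ n) v := by
    intro n v
    induction n with
    | zero => rfl
    | succ n ih =>
      rw [Function.iterate_succ_apply', pow_succ']
      exact congrArg T ih
  have h1 : Nat.card D ≡ Nat.card {v // f v = v} [MOD r] := Cfsg.Agent.J3.Fix.card_modEq hr f (by
    funext v
    apply Subtype.ext
    rw [hf, hTr]
    rfl)
  have h1' : Nat.card {v // f v = v} = 1 := by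
    rw [Nat.card_eq_one_iff_unique]
    refine ⟨⟨fun a b => ?_⟩, ⟨⟨0, ?_⟩⟩⟩
    · apply Subtype.ext
      apply Subtype.ext
      rw [hf0 _ a.1.2 (congrArg Subtype.val a.2), hf0 _ b.1.2 (congrArg Subtype.val b.2)]
    · exact Subtype.ext (map_zero T)
  let S := {v : D // res Q D v = 0}
  let g : S → S := fun v => ⟨f v.1, (hT _).trans v.2⟩
  have hg : ∀ n (v : S), (g^[n] v).1 = f^[n] v.1 := by
    intro n v
    induction n with
    | zero => rfl
    | succ n ih =>
      rw [Function.iterate_succ_apply', Function.iterate_succ_apply', ← ih]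
  have h2 : Nat.card S ≡ Nat.card {v // g v = v} [MOD r] := Cfsg.Agent.J3.Fix.card_modEq hr g (by
    funext v
    apply Subtype.ext
    apply Subtype.ext
    rw [hg, hf, hTr]
    rfl)
  have h2' : Nat.card {v // g v = v} = 1 := by
    rw [Nat.card_eq_one_iff_unique]
    refine ⟨⟨fun a b => ?_⟩, ⟨⟨⟨0, map_zero _⟩, ?_⟩⟩⟩
    · apply Subtype.ext
      apply Subtype.ext
      apply Subtype.ext
      rw [hf0 _ a.1.1.2 (congrArg (fun w : S => (w.1 : V)) a.2), hf0 _ b.1.1.2 (congrArg (fun w : S => (w.1 : V)) b.2)]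
    · exact Subtype.ext (Subtype.ext (map_zero T))
  rw [h64, h1'] at h1
  rw [h36, h2'] at h2
  have h3 : r ∣ 63 := (Nat.modEq_iff_dvd' (by norm_num)).1 h1.symm
  have h4 : r ∣ 35 := (Nat.modEq_iff_dvd' (by norm_num)).1 h2.symm
  have h5 : r ∣ 7 := by
    have := Nat.dvd_gcd h3 h4
    norm_num at this
    exact this
  exact (Nat.prime_dvd_prime_iff_eq hr (by norm_num)).1 h5

end two

end Cfsg.Agent.H273.RC.Fev
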